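import Cfsg.Agent.Invol.Basic
import Cfsg.Agent.Bin.Basic
import Cfsg.Agent.Perm.SchurField
import Mathlib.Tactic.LinearCombination
import Mathlib.Data.Set.Finite.Lemmas

/-! Binary affine groups I (helper2): `LBin H V` (the affine group `V ⋊ H` is binary), elements with maximal fixed
space (`Rf`, `Mx`) are involutions whose commutator spaces `Um` meet trivially, the line lemma `LBin.line`, the
cover `LBin.cover` and the structure theorem `LBin.struct` (anisotropic plane orthogonal group). -/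

set_option autoImplicit false

namespace Cfsg.Agent.Bin

universe u

/-- The affine group `V ⋊ H` is binary. -/
def LBin (H : Type*) (V : Type u) [Group H] [AddCommGroup V] [DistribMulAction H V] : Prop :=
  ∀ (ι : Type u) [Finite ι] (I J : ι → V), (∀ i j, ∃ h : H, h • (I i - I j) = J i - J j) →
    ∃ h : H, ∀ i j, h • (I i - I j) = J i - J j

variable {H : Type*} {V : Type u} [Group H] [AddCommGroup V] [DistribMulAction H V] {g h r s t : H} {u v w : V}

theorem card_sup_disj {A B : AddSubgroup V} (h : Disjoint A B) : Nat.card ↥(A ⊔ B) = Nat.card A * Nat.card B := by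
  rw [← Nat.card_prod]
  refine (Nat.card_eq_of_bijective (fun p : A × B => (⟨p.1 + p.2, AddSubgroup.add_mem_sup p.1.2 p.2.2⟩ : ↥(A ⊔ B)))
    ⟨fun p q e => ?_, fun ⟨x, hx⟩ => ?_⟩).symm
  · have e0 : (p.1 : V) + p.2 = q.1 + q.2 := congrArg Subtype.val e
    have e' : (p.1 : V) - q.1 = q.2 - p.2 := by linear_combination (norm := abel) e0
    have := AddSubgroup.disjoint_def.1 h (sub_mem p.1.2 q.1.2) (e' ▸ sub_mem q.2.2 p.2.2)
    exact Prod.ext (Subtype.ext (sub_eq_zero.1 this)) (Subtype.ext (sub_eq_zero.1 (e'.symm.trans this)).symm)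
  · obtain ⟨a, ha, b, hb, rfl⟩ := AddSubgroup.mem_sup.1 hx
    exact ⟨(⟨a, ha⟩, ⟨b, hb⟩), rfl⟩

variable (V) in
/-- `v ↦ h • v - v` -/
def dm (h : H) : V →+ V := DistribSMul.toAddMonoidHom V h - AddMonoidHom.id V

variable (V) in
/-- fixed space -/
def Cm (h : H) : AddSubgroup V := (dm V h).ker

variable (V) in
/-- commutator space -/
def Um (h : H) : AddSubgroup V := (dm V h).range

theorem mem_Cm : v ∈ Cm V h ↔ h • v = v := sub_eq_zero

theorem mem_Um : u ∈ Um V h ↔ ∃ v, h • v - v = u := Iff.rfl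

theorem sub_mem_Um (h : H) (v : V) : h • v - v ∈ Um V h := ⟨v, rfl⟩

theorem card_Cm_mul (h : H) : Nat.card (Cm V h) * Nat.card (Um V h) = Nat.card V := by
  rw [Um, ← AddSubgroup.index_ker, Cm, AddSubgroup.card_mul_index]

theorem mem_Cm_conj : v ∈ Cm V (g * h * g⁻¹) ↔ g⁻¹ • v ∈ Cm V h := by
  rw [mem_Cm, mem_Cm, mul_smul, mul_smul, smul_eq_iff_eq_inv_smul]

theorem smul_mem_Um (hu : u ∈ Um V h) (g : H) : g • u ∈ Um V (g * h * g⁻¹) := by
  obtain ⟨v, rfl⟩ := hu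
  exact ⟨g • v, by simp [dm, mul_smul, smul_sub]⟩

theorem card_Cm_conj (g h : H) : Nat.card (Cm V (g * h * g⁻¹)) = Nat.card (Cm V h) :=
  Nat.card_congr ((MulAction.toPerm g⁻¹).subtypeEquiv fun _ => mem_Cm_conj)

variable (V) in
/-- `s` has an inclusion-maximal fixed space. -/
def Rf (s : H) : Prop := s ≠ 1 ∧ ∀ g : H, g ≠ 1 → Cm V s ≤ Cm V g → Cm V g ≤ Cm V s

variable (V) in
/-- `s` has a largest fixed space. -/
def Mx (s : H) : Prop := s ≠ 1 ∧ ∀ g : H, g ≠ 1 → Nat.card (Cm V g) ≤ Nat.card (Cm V s)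

theorem Rf.conj (hs : Rf V s) (g : H) : Rf V (g * s * g⁻¹) :=
  ⟨by simpa using hs.1, fun k k1 hk v hv => mem_Cm_conj.2 (hs.2 (g⁻¹ * k * g⁻¹⁻¹) (mt conj_eq_one_iff.1 k1)
    (fun w hw => mem_Cm_conj.2 (hk (mem_Cm_conj.2 (by simpa using hw)))) (mem_Cm_conj.2 (by simpa using hv)))⟩

theorem Mx.conj (hs : Mx V s) (g : H) : Mx V (g * s * g⁻¹) :=
  ⟨by simpa using hs.1, fun k k1 => card_Cm_conj (V := V) g s ▸ hs.2 k k1⟩

variable [Finite V]

theorem Mx.rf (hs : Mx V s) : Rf V s := ⟨hs.1, fun g g1 h => (AddSubgroup.eq_of_le_of_card_ge h (hs.2 g g1)).ge⟩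

theorem Mx.card_U (hs : Mx V s) (h1 : g ≠ 1) : Nat.card (Um V s) ≤ Nat.card (Um V g) :=
  Nat.le_of_mul_le_mul_left (by rw [card_Cm_mul, ← card_Cm_mul g]; exact Nat.mul_le_mul_right _ (hs.2 g h1))
    (Nat.card_pos (α := Cm V s))

theorem Mx.of_le (hs : Mx V s) (h1 : g ≠ 1) (h : Nat.card (Um V g) ≤ Nat.card (Um V s)) : Mx V g :=
  ⟨h1, fun k k1 => (hs.2 k k1).trans (Nat.le_of_mul_le_mul_right (by
    rw [card_Cm_mul, ← card_Cm_mul g]; exact Nat.mul_le_mul_left _ h) (Nat.card_pos (α := Um V s)))⟩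

theorem exists_rf [Finite H] (h1 : g ≠ 1) : ∃ r : H, Rf V r ∧ Cm V g ≤ Cm V r := by
  obtain ⟨r, ⟨r1, hr⟩, hm⟩ := Set.exists_max_image {r : H | r ≠ 1 ∧ Cm V g ≤ Cm V r} (fun r => Nat.card (Cm V r))
    (Set.toFinite _) ⟨g, h1, le_rfl⟩
  exact ⟨r, ⟨r1, fun k k1 hk => (AddSubgroup.eq_of_le_of_card_ge hk (hm k ⟨k1, hr.trans hk⟩)).ge⟩, hr⟩

namespace LBin
variable (hb : LBin H V)
include hb

theorem shift (u : V) : ∃ g : H, ∀ v, (∃ h : H, h • v = v + u) → g • v = v + u := by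
  classical
  by_cases u0 : u = 0
  · exact ⟨1, by simp [u0]⟩
  obtain ⟨g, hg⟩ := hb {v // v = 0 ∨ ∃ h : H, h • v = v + u} (·.1) (fun v => if v.1 = 0 then 0 else v + u) (by
    rintro ⟨a, ha⟩ ⟨b, hb⟩
    by_cases a0 : a = 0 <;> by_cases b0 : b = 0
    · exact ⟨1, by simp [a0, b0]⟩
    · obtain ⟨h, e⟩ := hb.resolve_left b0
      exact ⟨h, by simp [a0, b0, e]⟩
    · obtain ⟨h, e⟩ := ha.resolve_left a0
      exact ⟨h, by simp [a0, b0, e]⟩
    · exact ⟨1, by simp [a0, b0]⟩)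
  refine ⟨g, fun v hv => ?_⟩
  have v0 : v ≠ 0 := by rintro rfl; obtain ⟨h, e⟩ := hv; exact u0 (by simpa using e.symm)
  simpa [v0] using hg ⟨v, .inr hv⟩ ⟨0, .inl rfl⟩

theorem swap (h : H) (v : V) : ∃ g : H, Cm V h ≤ Cm V g ∧ g • v = h • v ∧ g • h • v = v := by
  obtain ⟨g, hg⟩ := hb (Fin 3 × Cm V h) (fun p => ![0, v, v + h • v] p.1 + p.2)
    (fun p => ![0, h • v, v + h • v] p.1 + p.2) (by
      rintro ⟨i, c⟩ ⟨j, d⟩
      have e1 := mem_Cm.1 c.2
      have e2 := mem_Cm.1 d.2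
      have e3 := inv_smul_eq_iff.2 e1.symm
      have e4 := inv_smul_eq_iff.2 e2.symm
      fin_cases i <;> fin_cases j <;> first | exact ⟨1, one_smul _ _⟩ | (refine ⟨h, ?_⟩; simp [smul_sub, e1, e2]; done) |
        (refine ⟨h⁻¹, ?_⟩; simp [add_sub_add_comm, smul_sub, e3, e4]))
  refine ⟨g, fun c hc => mem_Cm.2 (by simpa using hg (0, ⟨c, hc⟩) (0, 0)), by simpa using hg (1, 0) (0, 0), ?_⟩
  simpa using hg (2, 0) (1, 0)

theorem sq (hs : Rf V s) [FaithfulSMul H V] : s * s = 1 := eq_of_smul_eq_smul fun v : V => by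
  obtain ⟨g, h1, h2, h3⟩ := hb.swap s v
  rw [one_smul, mul_smul]
  by_cases g1 : g = 1
  · rw [g1, one_smul] at h2; rw [← h2, ← h2]
  · have := mem_Cm.1 (hs.2 g g1 h1 (mem_Cm.2 (show g • (v + s • v) = v + s • v by rw [smul_add, h2, h3, add_comm])))
    rwa [smul_add, add_comm, add_left_inj] at this

theorem eq_smul (hs : Rf V s) (hu : h • v - v ∈ Um V s) (h0 : h • v ≠ v) : h • v = s • v := by
  obtain ⟨w, e⟩ := mem_Um.1 hu
  obtain ⟨g, hg⟩ := hb.shift (h • v - v)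
  have e1 := hg w ⟨s, by rw [← e]; abel⟩
  have e2 := hg v ⟨h, by abel⟩
  have := mem_Cm.1 (hs.2 g (by rintro rfl; exact h0 (by simpa [eq_comm] using e2)) (fun c hc => mem_Cm.2 (by
    have := hg (w + c) ⟨s, by rw [smul_add, mem_Cm.1 hc, ← e]; abel⟩
    rw [smul_add, e1] at this
    linear_combination (norm := abel) this)) (mem_Cm.2 (show g • (v - w) = v - w by rw [smul_sub, e1, e2]; abel)))
  rw [smul_sub] at this
  linear_combination (norm := abel) -e - this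

theorem eq_of_mem (hs : Rf V s) (ht : Rf V t) (h1 : u ∈ Um V s) (h2 : u ∈ Um V t) (h0 : u ≠ 0) : s = t := by
  obtain ⟨v, rfl⟩ := mem_Um.1 h2
  have e := hb.eq_smul hs h1 (sub_ne_zero.1 h0)
  have l : Cm V t ≤ Cm V s := fun c hc => mem_Cm.2 (by
    have e1 : t • (v + c) - (v + c) = t • v - v := by rw [smul_add, mem_Cm.1 hc]; abel
    have := hb.eq_smul hs (e1 ▸ h1) (sub_ne_zero.1 (e1 ▸ h0))
    rwa [smul_add, smul_add, e, add_right_inj, mem_Cm.1 hc, eq_comm] at this)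
  by_contra hn
  refine sub_ne_zero.1 h0 (mem_Cm.1 (ht.2 (s⁻¹ * t) (fun e => hn (inv_mul_eq_one.1 e)) (fun c hc => mem_Cm.2 ?_)
    (mem_Cm.2 ?_)))
  · rw [mul_smul, mem_Cm.1 hc, inv_smul_eq_iff, mem_Cm.1 (l hc)]
  · rw [mul_smul, e, inv_smul_smul]

theorem comm_of_fix (hs : Rf V s) (h1 : u ∈ Um V s) (h0 : u ≠ 0) (h : g • u = u) : g * s = s * g :=
  mul_inv_eq_iff_eq_mul.1 (hb.eq_of_mem (hs.conj g) hs (h ▸ smul_mem_Um h1 g) h1 h0)

theorem fix_of_comm (hs : Rf V s) (ht : Rf V t) (hne : s ≠ t) (h : s * t = t * s) : Um V s ≤ Cm V t := fun u hu =>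
  mem_Cm.2 (sub_eq_zero.1 (by_contra fun e => hne (hb.eq_of_mem hs ht
    (sub_mem (by simpa [← h] using smul_mem_Um hu t) hu) (sub_mem_Um t u) e)))

variable [FaithfulSMul H V]

theorem neg (hs : Rf V s) (hu : u ∈ Um V s) : s • u = -u := by
  obtain ⟨v, rfl⟩ := mem_Um.1 hu
  rw [smul_sub, ← mul_smul, hb.sq hs, one_smul, neg_sub]

theorem pm (hs : Rf V s) (h : g * s = s * g) (hu : u ∈ Um V s) : g • u = u ∨ g • u = -u :=
  or_iff_not_imp_left.2 fun e => (hb.eq_smul hs (sub_mem (by simpa [h] using smul_mem_Um hu g) hu) e).trans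
    (hb.neg hs hu)

theorem Cm_mul (hs : Rf V s) (ht : Rf V t) (hne : s ≠ t) : Cm V (s * t) = Cm V s ⊓ Cm V t := by
  ext v
  simp only [AddSubgroup.mem_inf, mem_Cm, mul_smul]
  refine ⟨fun h => ?_, fun h => by rw [h.2, h.1]⟩
  have e : t • v = s • v := by rw [← h, ← mul_smul s s, hb.sq hs, one_smul, h]
  have : t • v = v := sub_eq_zero.1 (by_contra fun e' => hne (hb.eq_of_mem hs ht (e ▸ sub_mem_Um s v)
    (sub_mem_Um t v) e'))
  exact ⟨e ▸ this, this⟩

theorem good (hs : Rf V s) (ht : Rf V t) (hne : s ≠ t) (hd : Disjoint (Um V (s * t)) (Cm V (s * t))) :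
    Um V (s * t) = Um V s ⊔ Um V t ∧ Nat.card (Um V (s * t)) = Nat.card (Um V s) * Nat.card (Um V t) ∧
      Um V (s * t) ⊔ Cm V (s * t) = ⊤ := by
  have e1 : Um V (s * t) ⊔ Cm V (s * t) = ⊤ := AddSubgroup.eq_top_of_card_eq _ (by
    rw [← card_Cm_mul (V := V) (s * t), mul_comm, card_sup_disj hd])
  have e2 : Um V (s * t) = Um V s ⊔ Um V t := by
    have key : ∀ r : H, Cm V (s * t) ≤ Cm V r → r * (s * t) * r⁻¹ = (s * t)⁻¹ → Um V r ≤ Um V (s * t) := by
      rintro r h1 h2 _ ⟨v, rfl⟩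
      obtain ⟨a, ha, c, hc, rfl⟩ := AddSubgroup.mem_sup.1 (e1 ▸ AddSubgroup.mem_top v)
      rw [map_add, show dm V r c = 0 from h1 hc, add_zero]
      refine sub_mem ?_ ha
      obtain ⟨w, e⟩ := mem_Um.1 (h2 ▸ smul_mem_Um ha r)
      exact ⟨-((s * t)⁻¹ • w), by simp [dm, ← e, sub_eq_add_neg, -mul_inv_rev, add_comm]⟩
    refine le_antisymm ?_ (sup_le (key s (hb.Cm_mul hs ht hne ▸ inf_le_left) ?_)
      (key t (hb.Cm_mul hs ht hne ▸ inf_le_right) ?_))
    · rintro _ ⟨v, rfl⟩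
      exact AddSubgroup.mem_sup.2 ⟨_, sub_mem_Um s (t • v), _, sub_mem_Um t v, by simp [dm, mul_smul]⟩
    · exact Invol.conj_prod_left (hb.sq hs) (hb.sq ht)
    · exact Invol.conj_prod_right (hb.sq hs) (hb.sq ht)
  refine ⟨e2, ?_, e1⟩
  rw [e2, card_sup_disj (AddSubgroup.disjoint_def.2 fun h1 h2 =>
    by_contra fun e => hne (hb.eq_of_mem hs ht h1 h2 e))]

variable [Finite H]

/-- The line lemma. -/
theorem line (gd : ∀ s t : H, Rf V s → Rf V t → s ≠ t → Disjoint (Um V (s * t)) (Cm V (s * t)))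
    (par : (∀ v : V, v = -v → v = 0) ∨ (∀ v : V, v = -v) ∧ ∀ s t : H, Rf V s → Rf V t → s * t = t * s → s = t)
    (hs : Mx V s) (ht : Rf V t) (hn : s * t ≠ t * s) :
    Mx V t ∧ ∀ u ∈ Um V s ⊔ Um V t, ∃ r : H, Mx V r ∧ u ∈ Um V r := by
  have ne : s ≠ t := by rintro rfl; exact hn rfl
  have G := fun (s t : H) hs ht hne => hb.good hs ht hne (gd s t hs ht hne)
  have idx : ∀ r r' : H, Rf V r → Rf V r' → r ≠ r' →
      Nat.card ↥(Cm V r ⊓ Cm V r') * (Nat.card (Um V r) * Nat.card (Um V r')) = Nat.card V := fun r r' h h' e => by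
    rw [← hb.Cm_mul h h' e, ← (G r r' h h' e).2.1, card_Cm_mul]
  have pos : ∀ A : AddSubgroup V, 0 < Nat.card A := fun _ => Nat.card_pos
  have m1 : ∀ r : H, Rf V r → Cm V s ⊓ Cm V t ≤ Cm V r → r ≠ t → Mx V r := fun r h hr e => hs.of_le h.1 (by
    have := AddSubgroup.card_le_of_le (le_inf hr inf_le_right)
    refine Nat.le_of_mul_le_mul_right (Nat.le_of_mul_le_mul_left ?_ (pos (Cm V s ⊓ Cm V t))) (pos (Um V t))
    rw [idx s t hs.rf ht ne, ← idx r t h ht e]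
    exact Nat.mul_le_mul_right _ this)
  have cc : ∀ g r : H, Cm V s ⊓ Cm V t ≤ Cm V g → Cm V s ⊓ Cm V t ≤ Cm V r → Cm V s ⊓ Cm V t ≤ Cm V (g * r * g⁻¹) :=
    fun g r hg hr c hc => mem_Cm_conj.2 (by rw [inv_smul_eq_iff.2 (mem_Cm.1 (hg hc)).symm]; exact hr hc)
  have tM : Mx V t := by
    simpa [mul_assoc] using (m1 _ (ht.conj s) (cc s t inf_le_left inf_le_right)
      (mt mul_inv_eq_iff_eq_mul.1 hn)).conj s⁻¹
  have m2 : ∀ r : H, Rf V r → Cm V s ⊓ Cm V t ≤ Cm V r → Mx V r := fun r h hr => by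
    by_cases e : r = t
    exacts [e ▸ tM, m1 r h hr e]
  have cq : ∀ r r' : H, Mx V r → Mx V r' → Nat.card (Um V r) = Nat.card (Um V r') := fun r r' h h' =>
    (h.card_U h'.1).antisymm (h'.card_U h.1)
  have m3 : ∀ r r' : H, Rf V r → Rf V r' → Cm V s ⊓ Cm V t ≤ Cm V r → Cm V s ⊓ Cm V t ≤ Cm V r' → r ≠ r' →
      Cm V r ⊓ Cm V r' = Cm V s ⊓ Cm V t := fun r r' h h' hr hr' e => by
    refine (AddSubgroup.eq_of_le_of_card_ge (le_inf hr hr') (Nat.eq_of_mul_eq_mul_right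
      (Nat.mul_pos (pos (Um V s)) (pos (Um V t))) ?_).le).symm
    rw [idx s t hs.rf ht ne, ← cq r s (m2 r h hr) hs, ← cq r' t (m2 r' h' hr') tM, idx r r' h h' e]
  have key : ∀ v : V, (s * t) • v ≠ v → ∃ r : H, Rf V r ∧ Cm V s ⊓ Cm V t ≤ Cm V r ∧ r • v = (s * t) • v := by
    intro v hv
    obtain ⟨g, g1, g2, g3⟩ := hb.swap (s * t) v
    rw [hb.Cm_mul hs.rf ht ne] at g1
    have g0 : g ≠ 1 := by rintro rfl; exact hv (by simpa using g2.symm)
    have gm : v + (s * t) • v ∈ Cm V g := mem_Cm.2 (by rw [smul_add, g2, g3, add_comm])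
    have nm : v + (s * t) • v ∉ Cm V s ⊓ Cm V t := fun e => hv (mem_Cm.1 (by
      have e1 : s ≠ t * s * t⁻¹ := fun e => hn (eq_mul_inv_iff_mul_eq.1 e)
      rw [hb.Cm_mul hs.rf ht ne, ← m3 s _ hs.rf (hs.rf.conj t) inf_le_left (cc t s inf_le_right inf_le_left) e1,
        ← hb.Cm_mul hs.rf (hs.rf.conj t) e1, inv_eq_of_mul_eq_one_right (hb.sq ht), mem_Cm]
      rw [← hb.Cm_mul hs.rf ht ne, mem_Cm, smul_add, add_comm, add_left_inj, ← mul_smul] at e
      simpa only [mul_assoc] using e))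
    generalize v + (s * t) • v = m at gm nm
    obtain ⟨r, hr, l⟩ := exists_rf (V := V) g0
    have un : ∀ r' : H, Rf V r' → Cm V s ⊓ Cm V t ≤ Cm V r' → m ∈ Cm V r' → r' = r := fun r' h h1 h2 =>
      by_contra fun e => nm (m3 r' r h hr h1 (g1.trans l) e ▸ ⟨h2, l gm⟩)
    have cm := mul_inv_eq_iff_eq_mul.1 (un _ (hr.conj g) (cc g r g1 (g1.trans l))
      (mem_Cm_conj.2 (by rw [inv_smul_eq_iff.2 (mem_Cm.1 gm).symm]; exact l gm)))
    have U0 : Um V r ≠ ⊥ := fun e => hr.1 (eq_of_smul_eq_smul fun v : V => by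
      simpa [e, sub_eq_zero] using sub_mem_Um r v)
    refine ⟨r, hr, g1.trans l, g2 ▸ congrArg (· • v) (Eq.symm ?_)⟩
    rcases par with par | ⟨par, par'⟩
    · have od : ∀ u ∈ Um V r, u ∈ Cm V r → u = 0 := fun u h1 h2 => par u ((mem_Cm.1 h2).symm.trans (hb.neg hr h1))
      by_contra e
      obtain ⟨r', hr', l'⟩ := exists_rf (V := V) (g := r⁻¹ * g) fun e' => e (inv_mul_eq_one.1 e').symm
      have f : ∀ c ∈ Cm V g, c ∈ Cm V r' := fun c hc => l' (mem_Cm.2 (by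
        rw [mul_smul, mem_Cm.1 hc, inv_smul_eq_iff, mem_Cm.1 (l hc)]))
      obtain rfl := un r' hr' (fun c hc => f c (g1 hc)) (f m gm)
      refine U0 (eq_bot_iff.2 fun u hu => od u hu (l' (mem_Cm.2 ?_)))
      rw [mul_smul, inv_smul_eq_iff]
      rcases hb.pm hr cm hu with e | e
      · rw [od u hu (l (mem_Cm.2 e))]; simp
      · rw [e, hb.neg hr hu]
    · have d : Disjoint (Cm V s ⊓ Cm V t) (Um V r) := AddSubgroup.disjoint_def.2 fun h1 h2 => by_contra fun e =>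
        ne ((par' s r hs.rf hr (hb.comm_of_fix hr h2 e (mem_Cm.1 h1.1))).trans
          (par' t r ht hr (hb.comm_of_fix hr h2 e (mem_Cm.1 h1.2))).symm)
      have e : Cm V s ⊓ Cm V t ⊔ Um V r = Cm V r := AddSubgroup.eq_of_le_of_card_ge
        (sup_le (g1.trans l) fun u hu => mem_Cm.2 ((hb.neg hr hu).trans (par u).symm)) (Nat.eq_of_mul_eq_mul_right
          (pos (Um V r)) (by rw [card_Cm_mul, card_sup_disj d, ← idx s t hs.rf ht ne, mul_assoc,
            cq s r hs (m2 r hr (g1.trans l)), cq t r tM (m2 r hr (g1.trans l))])).le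
      have l' : Cm V r ≤ Cm V g := e ▸ sup_le g1 fun u hu => mem_Cm.2 ((hb.pm hr cm hu).elim id
        fun e => e.trans (par u).symm)
      exact par' g r ⟨g0, fun k k1 hk => (hr.2 k k1 (l'.trans hk)).trans l'⟩ hr cm
  refine ⟨tM, fun u hu => ?_⟩
  obtain ⟨v, rfl⟩ := mem_Um.1 ((G s t hs.rf ht ne).1 ▸ hu)
  by_cases hv : (s * t) • v = v
  · exact ⟨s, hs, by simp [hv]⟩
  obtain ⟨r, hr, l, e⟩ := key v hv
  exact ⟨r, m2 r hr l, e ▸ sub_mem_Um r v⟩

omit [FaithfulSMul H V] [Finite H] in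
theorem disj_odd (par : ∀ v : V, v = -v → v = 0) (h : H) : Disjoint (Um V h) (Cm V h) :=
  AddSubgroup.disjoint_def.2 fun {u} ⟨v, e⟩ h2 => by
    replace e : h • v = v + u := by rw [← e]; simp [dm]
    obtain ⟨g, hg⟩ := hb.shift u
    have e1 := hg v ⟨h, e⟩
    have e2 := hg (-v) ⟨h⁻¹, by rw [inv_smul_eq_iff, smul_add, smul_neg, e, mem_Cm.1 h2]; abel⟩
    rw [smul_neg, e1] at e2
    exact par u (by linear_combination (norm := abel) -e2)

omit hb [Finite V] [Finite H] in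
theorem exists_Um (h1 : s ≠ 1) : ∃ u ∈ Um V s, u ≠ 0 := by
  by_contra! e
  exact h1 (eq_of_smul_eq_smul fun v : V => by simpa [sub_eq_zero] using e _ (sub_mem_Um s v))

variable (irr : ∀ B : AddSubgroup V, (∀ h : H, ∀ v ∈ B, h • v ∈ B) → B = ⊥ ∨ B = ⊤)
include irr

theorem cover_odd (par : ∀ v : V, v = -v → v = 0) (hs : Mx V s) (v : V) : ∃ r : H, Mx V r ∧ v ∈ Um V r := by
  have L := fun (s t : H) => hb.line (s := s) (t := t) (fun s t _ _ _ => hb.disj_odd par _) (.inl par)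
  have od : ∀ r : H, Rf V r → ∀ u ∈ Um V r, u ∈ Cm V r → u = 0 := fun r hr u h1 h2 =>
    par u ((mem_Cm.1 h2).symm.trans (hb.neg hr h1))
  have nc : ∀ a b : H, Mx V a → Mx V b → ∀ u ∈ Um V a, u ∉ Cm V b → a = b ∨ a * b ≠ b * a := fun a b ha hb' u h1 h2 =>
    or_iff_not_imp_left.2 fun e e' => h2 (hb.fix_of_comm ha.rf hb'.rf e e' h1)
  let R : H → H → Prop := fun a b => a = b ∨ a * b ≠ b * a ∨ ∃ t : H, Mx V t ∧ a * t ≠ t * a ∧ b * t ≠ t * b
  have sy : ∀ {a b}, R a b → R b a := fun h => h.imp Eq.symm (Or.imp Ne.symm fun ⟨t, h1, h2, h3⟩ => ⟨t, h1, h3, h2⟩)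
  have st : ∀ {a b c}, Mx V a → Mx V b → Mx V c → R a b → b * c ≠ c * b → R a c := by
    rintro a b c ha hb' hc (rfl | h | ⟨t, ht, h1, h2⟩) h'
    · exact .inr (.inl h')
    · exact .inr (.inr ⟨b, hb', h, h'.symm⟩)
    by_cases e1 : a = c
    · exact .inl e1
    by_cases e2 : a * c = c * a
    swap; · exact .inr (.inl e2)
    by_cases e3 : a * b = b * a
    swap; · exact .inr (.inr ⟨b, hb', e3, h'.symm⟩)
    by_cases e4 : c * t = t * c
    swap; · exact .inr (.inr ⟨t, ht, h1, e4⟩)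
    obtain ⟨x, hx, x0⟩ := exists_Um (V := V) ht.1
    obtain ⟨y, hy, y0⟩ := exists_Um (V := V) hb'.1
    obtain ⟨r, hr, m⟩ := (L t b ht hb'.rf h2.symm).2 _ (AddSubgroup.add_mem_sup hx hy)
    have n1 : x + y ∉ Cm V a := fun e => h1 (hb.comm_of_fix ht.rf hx x0 (mem_Cm.1 ((AddSubgroup.add_mem_cancel_right _
      (hb.fix_of_comm hb'.rf ha.rf (by rintro rfl; exact h' e2) e3.symm hy)).1 e)))
    have n2 : x + y ∉ Cm V c := fun e => h'.symm (hb.comm_of_fix hb'.rf hy y0 (mem_Cm.1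
      ((AddSubgroup.add_mem_cancel_left _ (hb.fix_of_comm ht.rf hc.rf (by rintro rfl; exact h1 e2) e4.symm hx)).1 e)))
    rcases nc r a hr ha _ m n1 with rfl | k1 <;> rcases nc _ c hr hc _ m n2 with rfl | k2
    exacts [.inl rfl, absurd e2 k2, absurd e2.symm k1, .inr (.inr ⟨r, hr, k1.symm, k2.symm⟩)]
  have tr : ∀ {a b c}, Mx V a → Mx V b → Mx V c → R a b → R b c → R a c := by
    rintro a b c ha hb' hc h (rfl | h' | ⟨t, ht, h1, h2⟩)
    exacts [h, st ha hb' hc h h', st ha ht hc (st ha hb' ht h h1) h2.symm]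
  have cj : ∀ (g : H) {a b}, R a b → R (g * a * g⁻¹) (g * b * g⁻¹) := fun g a b h => h.imp (by simp)
    (Or.imp (by simp) fun ⟨t, h1, h2, h3⟩ => ⟨_, h1.conj g, by simpa, by simpa⟩)
  have ln : ∀ a b : H, Mx V a → Mx V b → R s a → R s b → a = b ∨ a * b ≠ b * a → ∀ x ∈ Um V a, ∀ y ∈ Um V b,
      ∃ r : H, (Mx V r ∧ R s r) ∧ x + y ∈ Um V r := by
    rintro a b ha hb' h1 h2 (rfl | h) x hx y hy
    · exact ⟨a, ⟨ha, h1⟩, add_mem hx hy⟩
    obtain ⟨r, hr, m⟩ := (L a b ha hb'.rf h).2 _ (AddSubgroup.add_mem_sup hx hy)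
    by_cases e : R s r
    · exact ⟨r, ⟨hr, e⟩, m⟩
    have k : ∀ a, Mx V a → R s a → Um V a ≤ Cm V r := fun a ha h => hb.fix_of_comm ha.rf hr.rf
      (by rintro rfl; exact e h) (by_contra fun e' => e (st hs ha hr h e'))
    exact ⟨a, ⟨ha, h1⟩, od r hr.rf _ m (add_mem (k a ha h1 hx) (k b hb' h2 hy)) ▸ zero_mem _⟩
  let T : AddSubgroup V :=
    { carrier := {v | ∃ r : H, (Mx V r ∧ R s r) ∧ v ∈ Um V r}
      zero_mem' := ⟨s, ⟨hs, .inl rfl⟩, zero_mem _⟩
      neg_mem' := fun ⟨r, h, m⟩ => ⟨r, h, neg_mem m⟩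
      add_mem' := by
        rintro x y ⟨a, ⟨ha, h1⟩, hx⟩ ⟨b, ⟨hb', h2⟩, hy⟩
        by_cases e0 : a = b ∨ a * b ≠ b * a
        · exact ln a b ha hb' h1 h2 e0 x hx y hy
        obtain ⟨t, ht, k1, k2⟩ := ((tr ha hs hb' (sy h1) h2).resolve_left fun e => e0 (.inl e)).resolve_left
          fun e => e0 (.inr e)
        push Not at e0
        have h3 := st hs ha ht h1 k1
        obtain ⟨z, hz, z0⟩ := exists_Um (V := V) ht.1
        by_contra hn
        have key : ∀ z ∈ Um V t, z ≠ 0 → x + (y - z) ∈ Cm V t := fun z hz z0 => by_contra fun e => by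
          obtain ⟨r, ⟨hr, h4⟩, m⟩ := ln b t hb' ht h2 h3 (.inr k2) y hy _ (neg_mem hz)
          obtain ⟨r', ⟨hr', h5⟩, m'⟩ := ln a r ha hr h1 h4 ((nc r a hr ha _ m fun e => k1
            (hb.comm_of_fix ht.rf hz z0 (mem_Cm.1 (neg_mem_iff.1 ((AddSubgroup.add_mem_cancel_left _
              (hb.fix_of_comm hb'.rf ha.rf e0.1.symm e0.2.symm hy)).1 e))))).imp Eq.symm Ne.symm) x hx _ m
          rw [← sub_eq_add_neg] at m'
          exact hn (by simpa [add_assoc] using ln r' t hr' ht h5 h3 (nc r' t hr' ht _ m' e) _ m' z hz)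
        have := od t ht.rf (z + z) (add_mem hz hz) (by
          convert sub_mem (key _ (neg_mem hz) (neg_ne_zero.2 z0)) (key z hz z0) using 1; abel)
        exact z0 (par z (eq_neg_of_add_eq_zero_left this)) }
  let C : AddSubgroup V := ⨅ r : {r : H // Mx V r ∧ R s r}, Cm V r.1
  have mC : ∀ {v}, v ∈ C ↔ ∀ r : H, Mx V r → R s r → r • v = v := by
    simp [C, AddSubgroup.mem_iInf, mem_Cm]
  have TC : ∀ v ∈ T, v ∈ C → v = 0 := fun v ⟨r, h, m⟩ hv => od r h.1.rf v m (mem_Cm.2 (mC.1 hv r h.1 h.2))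
  have n1 : ∀ g : H, R s (g * s * g⁻¹) → ∀ v ∈ T, g • v ∈ T := fun g h v ⟨r, hr, m⟩ =>
    ⟨_, ⟨hr.1.conj g, tr hs (hs.conj g) (hr.1.conj g) h (cj g hr.2)⟩, smul_mem_Um m g⟩
  have n2 : ∀ g : H, ¬ R s (g * s * g⁻¹) → ∀ v ∈ T, g • v ∈ C := fun g h v ⟨r, hr, m⟩ => mC.2 fun t ht h' => by
    have : ¬ R s (g * r * g⁻¹) := fun e => h (tr hs (hr.1.conj g) (hs.conj g) e (cj g (sy hr.2)))
    exact mem_Cm.1 (hb.fix_of_comm (hr.1.conj g).rf ht.rf (by rintro rfl; exact this h')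
      (by_contra fun e => this (st hs ht (hr.1.conj g) h' (Ne.symm e))) (smul_mem_Um m g))
  have n3 : ∀ g : H, R s (g * s * g⁻¹) → ∀ v ∈ C, g • v ∈ C := fun g h v hv => mC.2 fun t ht h' => by
    have := mC.1 hv _ (ht.conj g⁻¹) (by simpa [mul_assoc] using cj g⁻¹ (tr (hs.conj g) hs ht (sy h) h'))
    rwa [inv_inv, mul_smul, mul_smul, inv_smul_eq_iff] at this
  obtain ⟨x, hx, x0⟩ := exists_Um (V := V) hs.1
  have xT : x ∈ T := ⟨s, ⟨hs, .inl rfl⟩, hx⟩
  have top : T ⊔ C = ⊤ := by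
    refine eq_top_iff.2 (((irr (AddSubgroup.closure {w | ∃ g : H, ∃ v ∈ T, w = g • v}) fun h v hv => ?_).resolve_left
      fun e => x0 (AddSubgroup.mem_bot.1 (e ▸ AddSubgroup.subset_closure ⟨1, x, xT, by simp⟩))).ge.trans ?_)
    · induction hv using AddSubgroup.closure_induction with
      | mem w hw => obtain ⟨g, v, hv, rfl⟩ := hw; exact AddSubgroup.subset_closure ⟨h * g, v, hv, (mul_smul _ _ _).symm⟩
      | zero => simp
      | add a b _ _ h1 h2 => rw [smul_add]; exact add_mem h1 h2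
      | neg a _ h1 => rw [smul_neg]; exact neg_mem h1
    · rw [AddSubgroup.closure_le]
      rintro _ ⟨g, v, hv, rfl⟩
      by_cases e : R s (g * s * g⁻¹)
      exacts [AddSubgroup.mem_sup_left (n1 g e v hv), AddSubgroup.mem_sup_right (n2 g e v hv)]
  have all : ∀ g : H, R s (g * s * g⁻¹) := by
    by_contra! hn
    obtain ⟨g, hg, hm⟩ := Set.exists_max_image {g : H | ¬ R s (g * s * g⁻¹)} (fun g => Nat.card (Cm V g))
      (Set.toFinite _) hn
    have sq : ∀ k : H, ¬ R s (k * s * k⁻¹) → Cm V g ≤ Cm V k → Cm V k ≤ Cm V g ∧ k * k = 1 := fun k hk l => by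
      have A : ∀ v : V, v + k • v ∈ Cm V k ∨ ∃ g', R s (g' * s * g'⁻¹) ∧ g' • v = k • v := fun v => by
        obtain ⟨g', h1, h2, h3⟩ := hb.swap k v
        refine or_iff_not_imp_right.2 fun e => ?_
        rw [AddSubgroup.eq_of_le_of_card_ge h1 ((hm g' fun e' => e ⟨g', e', h2⟩).trans (AddSubgroup.card_le_of_le l))]
        exact mem_Cm.2 (by rw [smul_add, h2, h3, add_comm])
      have A1 : ∀ x ∈ T, x + k • x ∈ Cm V k := fun x hx => (A x).elim id fun ⟨g', h1, h2⟩ => by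
        rw [(smul_eq_zero_iff_eq k).1 (TC _ (h2 ▸ n1 g' h1 x hx) (n2 k hk x hx))]; simp
      have A2 : ∀ c ∈ C, c + k • c ∈ Cm V k := fun c hc => (A c).elim id fun ⟨g', h1, h2⟩ => by
        rcases A (c + x) with e | ⟨g'', h3, h4⟩
        · convert sub_mem e (A1 x xT) using 1; rw [smul_add]; abel
        · refine absurd ((smul_eq_zero_iff_eq g'').1 (TC _ (n1 g'' h3 x xT) ?_)) x0
          rw [smul_add, smul_add, ← h2] at h4
          rw [eq_sub_of_add_eq' h4]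
          exact sub_mem (add_mem (n3 g' h1 c hc) (n2 k hk x xT)) (n3 g'' h3 c hc)
      refine ⟨(AddSubgroup.eq_of_le_of_card_ge l (hm k hk)).ge, eq_of_smul_eq_smul fun v : V => ?_⟩
      obtain ⟨a, ha, c, hc, rfl⟩ := AddSubgroup.mem_sup.1 (top ▸ AddSubgroup.mem_top v)
      have e1 := mem_Cm.1 (A1 a ha)
      have e2 := mem_Cm.1 (A2 c hc)
      rw [smul_add, add_comm, add_left_inj] at e1 e2
      rw [mul_smul, smul_add, smul_add, e1, e2, one_smul]
    obtain ⟨r, hr, l⟩ := exists_rf (V := V) (g := g) (by rintro rfl; exact hg (.inl (by simp)))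
    have r2 := hb.sq hr
    have nr : R s (r * s * r⁻¹) := by
      by_cases e : s * r = r * s
      · exact .inl (by rw [← e, mul_inv_cancel_right])
      · exact st hs (L s r hs hr e).1 (hs.conj r) (.inr (.inl e)) fun e' =>
          e (mul_inv_eq_iff_eq_mul.1 (show r * s * r⁻¹ = s by simpa [mul_assoc] using e')).symm
    obtain ⟨l', e⟩ := sq (r * g) (fun e => hg (by
      simpa [mul_assoc] using cj r⁻¹ (tr (hs.conj r) hs (hs.conj _) (sy nr) e))) fun c hc => mem_Cm.2 (by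
      rw [mul_smul, mem_Cm.1 hc, mem_Cm.1 (l hc)])
    obtain ⟨u, hu, u0⟩ := exists_Um (V := V) hr.1
    refine u0 (od r hr u hu (l ?_))
    rcases hb.pm hr (g := g) (by
      rw [← inv_eq_of_mul_eq_one_right e, mul_inv_rev, inv_eq_of_mul_eq_one_right r2,
        inv_eq_of_mul_eq_one_right (sq g hg le_rfl).2]) hu with e | e
    · exact mem_Cm.2 e
    · exact l' (mem_Cm.2 (by rw [mul_smul, e, smul_neg, hb.neg hr hu, neg_neg]))
  obtain ⟨r, hr, m⟩ : v ∈ T := ((irr T fun g => n1 g (all g)).resolve_left fun e => x0 (by simpa [e] using xT)) ▸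
    AddSubgroup.mem_top v
  exact ⟨r, hr.1, m⟩

omit [Finite H] irr in
theorem four (par : ∀ v : V, v = -v) {f : H} (h : f * f * (f * f) = 1) : f * f = 1 := by
  have z : ∀ v : V, v + v = 0 := fun v => add_eq_zero_iff_eq_neg.2 (par v)
  have key : ∀ w : V, f • (f • f • w + w) = f • f • w + w → f • f • w = w := fun w e => by
    obtain ⟨g, hg⟩ := hb.shift (f • f • w + w)
    have e1 := hg w ⟨f * f, by rw [mul_smul]; linear_combination (norm := abel) -z w⟩
    have e2 := hg (f • w + w) ⟨f, by rw [smul_add]; linear_combination (norm := abel) -z w⟩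
    have e3 := hg (f • w) ⟨f * f, by
      rw [mul_smul, ← e, smul_add]; linear_combination (norm := abel) -z (f • w)⟩
    rw [smul_add, e1, e3] at e2
    linear_combination (norm := abel) e2 - z w
  refine eq_of_smul_eq_smul fun w : V => ?_
  have h4 : f • f • f • f • w = w := by rw [← mul_smul, ← mul_smul f f w, ← mul_smul, h, one_smul]
  have := key (f • w + w) (by simp only [smul_add, h4]; abel)
  rw [mul_smul, one_smul]
  refine key w ?_
  simp only [smul_add] at this ⊢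
  linear_combination (norm := abel) this - z (f • f • w) + z (f • w)

omit irr in
theorem conj_comm (par : ∀ v : V, v = -v) (hs : Rf V s) (g : H) (h : s * (g * s * g⁻¹) = g * s * g⁻¹ * s) :
    g * s * g⁻¹ = s := by
  obtain ⟨x, hx, x0⟩ := exists_Um (V := V) hs.1
  obtain ⟨k, -, k1, k2⟩ := hb.swap g x
  obtain ⟨a, m, ⟨b, rfl⟩, e⟩ := Nat.exists_eq_two_pow_mul_odd (orderOf_pos k).ne'
  have e1 : ∀ n : ℕ, (k * k) ^ n • x = x := fun n => (MulAction.stabilizer H x).pow_mem (by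
    rw [MulAction.mem_stabilizer_iff, mul_smul, k1, k2]) n
  have e2 : k ^ (2 * b + 1) • x = g • x := by rw [pow_succ', mul_smul, pow_mul, pow_two, e1, k1]
  have e3 : ∀ a : ℕ, ∀ f : H, f ^ 2 ^ a = 1 → f * f = 1 := fun a => by
    induction a with
    | zero => intro f h; rw [pow_zero, pow_one] at h; rw [h, one_mul]
    | succ a ih => intro f h; exact hb.four par (ih _ (by rwa [← _root_.sq, ← pow_mul, ← pow_succ']))
  have e4 := e3 a (k ^ (2 * b + 1)) (by rw [← pow_mul, mul_comm, ← e, pow_orderOf_eq_one])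
  generalize k ^ (2 * b + 1) = f at e2 e4
  have e5 : f * s * f⁻¹ = g * s * g⁻¹ := hb.eq_of_mem (hs.conj f) (hs.conj g) (e2 ▸ smul_mem_Um hx f)
    (smul_mem_Um hx g) (mt (smul_eq_zero_iff_eq g).1 x0)
  have e6 : f * s * (f * s) = g * s * g⁻¹ * s := by rw [← e5, inv_eq_of_mul_eq_one_right e4]; group
  have := hb.four par (f := f * s) (by
    have := hb.sq (hs.conj g)
    rw [e6]
    generalize g * s * g⁻¹ = r at *
    rw [mul_assoc, ← mul_assoc s, h, mul_assoc r s, hb.sq hs, mul_one, this])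
  rw [e6] at this
  rw [eq_inv_of_mul_eq_one_left this, inv_eq_of_mul_eq_one_right (hb.sq hs)]

omit [Finite H] irr in
theorem disj_even (par : ∀ v : V, v = -v) (hs : Rf V s) (ht : Rf V t) (hn : s * t ≠ t * s) :
    Disjoint (Um V (s * t)) (Cm V (s * t)) := AddSubgroup.disjoint_def.2 fun {u} ⟨v, e⟩ h2 => by
  rw [hb.Cm_mul hs ht (by rintro rfl; exact hn rfl)] at h2
  have c : ∀ r : H, Rf V r → Um V r ≤ Cm V r := fun r hr u hu => mem_Cm.2 ((hb.neg hr hu).trans (par u).symm)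
  have e' : u = (s • t • v - t • v) + (t • v - v) := by rw [← e]; simp [dm, mul_smul]
  have h3 : s • t • v - t • v = 0 := by_contra fun e0 => hn (hb.comm_of_fix hs (sub_mem_Um s _) e0 (mem_Cm.1
    ((AddSubgroup.add_mem_cancel_right _ (c t ht (sub_mem_Um t v))).1 (e' ▸ h2.2)))).symm
  rw [h3, zero_add] at e'
  exact by_contra fun e0 => hn (hb.comm_of_fix ht (e' ▸ sub_mem_Um t v) e0 (mem_Cm.1 h2.1))

theorem comm_even (par : ∀ v : V, v = -v) (hs : Rf V s) (ht : Rf V t) (h : s * t = t * s) : s = t := by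
  have key : ∀ s : H, Rf V s → s * t ≠ t * s → ∃ g, g * s * g⁻¹ = t := fun s hs hn => by
    have ne : s ≠ t := by rintro rfl; exact hn rfl
    rcases Nat.even_or_odd (orderOf (s * t)) with e | e
    · obtain ⟨z1, z2, z3⟩ := Invol.half_pow_spec (hb.sq hs) (hb.sq ht) e
      obtain ⟨g1, -, g3⟩ := hb.good hs ht ne (hb.disj_even par hs ht hn)
      refine absurd (eq_of_smul_eq_smul fun v : V => ?_) (Invol.ne_one_of z1)
      have : ⊤ ≤ Cm V ((s * t) ^ (orderOf (s * t) / 2)) := by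
        rw [← g3, g1]
        refine sup_le (sup_le (fun u hu => mem_Cm.2 ?_) fun u hu => mem_Cm.2 ?_) fun c hc =>
          mem_Cm.2 ((MulAction.stabilizer H c).pow_mem (mem_Cm.1 hc) _)
        exacts [(hb.pm hs z2 hu).elim id fun e => e.trans (par u).symm,
          (hb.pm ht z3 hu).elim id fun e => e.trans (par u).symm]
      rw [one_smul]; exact mem_Cm.1 (this (AddSubgroup.mem_top v))
    · obtain ⟨k, hk⟩ := Invol.exists_conj_of_odd (hb.sq hs) (hb.sq ht) e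
      exact ⟨_, hk⟩
  by_cases e : ∀ g, g * s * g⁻¹ * t = t * (g * s * g⁻¹)
  · by_contra ne
    obtain ⟨x, hx, x0⟩ := exists_Um (V := V) hs.1
    let B : AddSubgroup V := ⨅ g : H, (Cm V t).comap (DistribSMul.toAddMonoidHom V g)
    have mB : ∀ {v}, v ∈ B ↔ ∀ g : H, g • v ∈ Cm V t := by simp [B, AddSubgroup.mem_iInf]
    rcases irr B fun h v hv => mB.2 fun g => by rw [← mul_smul]; exact mB.1 hv _ with e' | e'
    · refine absurd (AddSubgroup.mem_bot.1 (e' ▸ mB.2 fun g => ?_)) x0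
      by_cases e1 : g * s * g⁻¹ = t
      · exact mem_Cm.2 ((hb.neg ht (e1 ▸ smul_mem_Um hx g)).trans (par _).symm)
      · exact hb.fix_of_comm (hs.conj g) ht e1 (e g) (smul_mem_Um hx g)
    · exact ht.1 (eq_of_smul_eq_smul fun v : V => by simpa [mem_Cm] using mB.1 (e' ▸ AddSubgroup.mem_top v) 1)
  · push Not at e
    obtain ⟨g, e⟩ := e
    obtain ⟨k, rfl⟩ := key _ (hs.conj g) e
    rw [show k * (g * s * g⁻¹) * k⁻¹ = k * g * s * (k * g)⁻¹ by group] at h ⊢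
    exact (hb.conj_comm par hs _ h).symm

theorem cover (hs : Mx V s) (v : V) : ∃ r : H, Mx V r ∧ v ∈ Um V r := by
  rcases irr (AddMonoidHom.id V + AddMonoidHom.id V).ker fun h v hv => by
    simpa [← smul_add, smul_eq_zero_iff_eq] using hv with e | e
  · exact hb.cover_odd irr (fun v h => AddSubgroup.mem_bot.1 (e ▸ add_eq_zero_iff_eq_neg.2 h)) hs v
  have par : ∀ v : V, v = -v := fun v => add_eq_zero_iff_eq_neg.1 (e.ge (AddSubgroup.mem_top v))
  let T : AddSubgroup V :=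
    { carrier := {v | ∃ r : H, Mx V r ∧ v ∈ Um V r}
      zero_mem' := ⟨s, hs, zero_mem _⟩
      neg_mem' := fun ⟨r, h, m⟩ => ⟨r, h, neg_mem m⟩
      add_mem' := by
        rintro x y ⟨a, ha, hx⟩ ⟨b, hb', hy⟩
        by_cases e : a = b
        · exact ⟨b, hb', add_mem (e ▸ hx) hy⟩
        exact (hb.line (fun s t hs ht ne => hb.disj_even par hs ht (mt (hb.comm_even irr par hs ht) ne))
          (.inr ⟨par, fun s t => hb.comm_even irr par⟩) ha hb'.rf (mt (hb.comm_even irr par ha.rf hb'.rf) e)).2 _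
          (AddSubgroup.add_mem_sup hx hy) }
  obtain ⟨x, hx, x0⟩ := exists_Um (V := V) hs.1
  exact ((irr T fun g v ⟨r, hr, m⟩ => ⟨_, hr.conj g, smul_mem_Um m g⟩).resolve_left fun e =>
    x0 (AddSubgroup.mem_bot.1 (e ▸ ⟨s, hs, hx⟩))).ge (AddSubgroup.mem_top v)

omit [Finite H] in
theorem fix_iff (hs : Rf V s) (hr : Rf V r) (hw : w ∈ Um V s) (w0 : w ≠ 0) : r • w = w ↔ Um V r ≤ Cm V s := by
  have key : ∀ {s r : H} {w : V}, Rf V s → Rf V r → w ∈ Um V s → w ≠ 0 → r • w = w → Um V r ≤ Cm V s := by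
    intro s r w hs hr hw w0 h
    by_cases e : r = s
    · subst e
      have := (irr (AddMonoidHom.id V + AddMonoidHom.id V).ker fun h v hv => by
        simpa [← smul_add, smul_eq_zero_iff_eq] using hv).resolve_left fun e => w0 (AddSubgroup.mem_bot.1
          (e ▸ add_eq_zero_iff_eq_neg.2 (h.symm.trans (hb.neg hs hw))))
      exact fun u hu => mem_Cm.2 ((hb.neg hs hu).trans (add_eq_zero_iff_eq_neg.1 (this.ge (AddSubgroup.mem_top u))).symm)
    · exact hb.fix_of_comm hr hs e (hb.comm_of_fix hs hw w0 h)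
  refine ⟨key hs hr hw w0, fun h => ?_⟩
  obtain ⟨x, hx, x0⟩ := exists_Um (V := V) hr.1
  exact mem_Cm.1 (key hr hs hx x0 (mem_Cm.1 (h hx)) hw)

theorem card_le (hs : Mx V s) : Nat.card (Cm V s) ≤ Nat.card (Um V s) := by
  classical
  have := Fintype.ofFinite V
  have cq : ∀ r : H, Mx V r → Nat.card (Um V r) = Nat.card (Um V s) := fun r h => (h.card_U hs.1).antisymm (hs.card_U h.1)
  have e0 := card_Cm_mul (V := V) s
  obtain ⟨q, hq⟩ : ∃ q, Nat.card (Um V s) = q + 2 := by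
    obtain ⟨x, hx, x0⟩ := exists_Um (V := V) hs.1
    have : Nontrivial (Um V s) := ⟨⟨x, hx⟩, 0, by simpa⟩
    exact Nat.exists_eq_add_of_le' Finite.one_lt_card
  have orb : ∀ w : V, w ≠ 0 → (Finset.univ.filter (· ∈ MulAction.orbit H w)).card = Nat.card (Cm V s) + 1 := by
    intro w w0
    obtain ⟨t, ht, hw⟩ := hb.cover irr hs w
    choose ρ h1 h2 using hb.cover irr hs
    have e1 := Finset.card_eq_sum_card_fiberwise (s := Finset.univ.filter (· ∉ Cm V t))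
      (t := (Finset.univ.filter (· ∈ MulAction.orbit H w)).erase w) (f := fun v => ρ v • w) fun v hv => by
        simp only [Finset.coe_filter, Finset.mem_univ, true_and, Set.mem_ofPred_eq, Finset.coe_erase, Set.mem_sdiff,
          MulAction.mem_orbit, Set.mem_singleton_iff] at hv ⊢
        exact fun e => hv ((hb.fix_iff irr ht.rf (h1 v).rf hw w0).1 e (h2 v))
    rw [Finset.sum_const_nat (m := q + 1), Finset.card_erase_of_mem (by simp)] at e1
    · have e2 := Finset.card_filter_add_card_filter_not (s := Finset.univ) (· ∈ Cm V t)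
      rw [e1, Finset.card_univ, ← Nat.card_eq_fintype_card, ← e0, hq, ← Fintype.card_subtype,
        ← Nat.card_eq_fintype_card, show Nat.card {x // x ∈ Cm V t} = Nat.card (Cm V s) from
          (hs.2 t ht.1).antisymm (ht.2 s hs.1)] at e2
      have e3 : 0 < (Finset.univ.filter (· ∈ MulAction.orbit H w)).card := Finset.card_pos.2 ⟨w, by simp⟩
      have := Nat.eq_of_mul_eq_mul_right q.succ_pos (Nat.add_left_cancel (e2.trans
        (show _ = Nat.card (Cm V s) + Nat.card (Cm V s) * (q + 1) by ring)))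
      omega
    · intro y hy
      obtain ⟨y1, g, rfl⟩ : y ≠ w ∧ ∃ g : H, g • w = y := by simpa [MulAction.mem_orbit_iff] using hy
      have e2 := hb.eq_smul (h1 _).rf (h2 (g • w - w)) y1
      have : (Finset.univ.filter (· ∈ Um V (ρ (g • w - w)))).card = q + 2 := by
        rw [← Fintype.card_subtype, ← Nat.card_eq_fintype_card, ← hq]; exact cq _ (h1 _)
      refine Eq.trans (congrArg _ ?_) ((Finset.card_erase_of_mem
        (s := Finset.univ.filter (· ∈ Um V (ρ (g • w - w)))) (a := 0) (by simp)).trans (by rw [this]; rfl))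
      ext v
      simp only [Finset.mem_filter, Finset.mem_univ, true_and, Finset.mem_erase]
      refine ⟨fun ⟨a, b⟩ => ⟨by rintro rfl; exact a (zero_mem _), hb.eq_of_mem (h1 v).rf (h1 _).rf
        (b ▸ sub_mem_Um _ w) (h2 _) (sub_ne_zero.2 y1) ▸ h2 v⟩, fun ⟨a, b⟩ => ?_⟩
      have e3 := hb.eq_of_mem (h1 v).rf (h1 _).rf (h2 v) b a
      exact ⟨fun e => y1 (e2.trans (e3 ▸ mem_Cm.1 ((hb.fix_iff irr (h1 v).rf ht.rf (h2 v) a).1 (mem_Cm.1 e) hw))),
        e3 ▸ e2.symm⟩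
  have e1 := Finset.card_eq_sum_card_image (Quotient.mk (MulAction.orbitRel H V)) (Finset.univ.erase (0 : V))
  have e2 : Nat.card (Cm V s) + 1 ∣ (Finset.univ.erase (0 : V)).card := by
    rw [e1]
    refine Finset.dvd_sum fun o ho => ?_
    obtain ⟨w, hw, rfl⟩ := Finset.mem_image.1 ho
    rw [← orb w (Finset.ne_of_mem_erase hw)]
    refine dvd_of_eq (congrArg _ ?_)
    ext v
    simp only [Finset.mem_filter, Finset.mem_univ, true_and, Finset.mem_erase, and_true, Quotient.eq,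
      MulAction.orbitRel_apply, iff_and_self]
    rintro ⟨g, rfl⟩
    exact mt (smul_eq_zero_iff_eq g).1 (Finset.ne_of_mem_erase hw)
  rw [Finset.card_erase_of_mem (Finset.mem_univ _), Finset.card_univ, ← Nat.card_eq_fintype_card, ← e0] at e2
  have e3 : 0 < Nat.card (Cm V s) * Nat.card (Um V s) := Nat.mul_pos Nat.card_pos Nat.card_pos
  have := Nat.le_of_dvd (Nat.succ_pos _) ((Nat.dvd_add_right e2).1 (show _ ∣ _ + (Nat.card (Um V s) + 1) from
    Dvd.intro (Nat.card (Um V s)) (by rw [add_mul]; omega)))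
  omega

theorem unique_fix (hs : Mx V s) (h : Cm V s ≠ ⊥) (w0 : w ≠ 0) : ∃! r : H, Mx V r ∧ r • w = w := by
  obtain ⟨t, ht, hw⟩ := hb.cover irr hs w
  obtain ⟨y, hy, y0⟩ : ∃ y ∈ Cm V t, y ≠ 0 := by
    by_contra! e
    exact h (AddSubgroup.eq_bot_of_card_le _ ((ht.2 s hs.1).trans (AddSubgroup.card_eq_one.2 (eq_bot_iff.2 e)).le))
  obtain ⟨r, hr, m⟩ := hb.cover irr hs y
  have := (hb.fix_iff irr hr.rf ht.rf m y0).1 (mem_Cm.1 hy)
  refine ⟨r, ⟨hr, mem_Cm.1 (this hw)⟩, fun r' h' => ?_⟩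
  have e := AddSubgroup.eq_of_le_of_card_ge ((hb.fix_iff irr ht.rf hr.rf hw w0).1 (mem_Cm.1 (this hw)))
    ((hb.card_le irr ht).trans (ht.card_U hr.1))
  obtain ⟨x, hx, x0⟩ := exists_Um (V := V) h'.1.1
  exact hb.eq_of_mem h'.1.rf hr.rf hx (e ▸ (hb.fix_iff irr ht.rf h'.1.rf hw w0).1 h'.2 hx) x0

theorem struct (hs : Mx V s) (h : Cm V s ≠ ⊥) : ∃ (K : Type) (_ : Field K) (_ : Fintype K) (e : K ≃+ V) (φ : K ≃+* K),
    (∀ x, φ (φ x) = x) ∧ (∃ x, φ x ≠ x) ∧ (∀ x, s • e x = e (φ x)) ∧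
      (∀ g : H, ∃ a, a * φ a = 1 ∧ ((∀ x, g • e x = e (a * x)) ∨ ∀ x, g • e x = e (a * φ x))) ∧
      ∀ a, a * φ a = 1 → ∃ g : H, ∀ x, g • e x = e (a * x) := by
  have U := fun w w0 => hb.unique_fix irr (w := w) hs h w0
  have s2 := hb.sq hs.rf
  obtain ⟨w, hw, w0⟩ : ∃ w ∈ Cm V s, w ≠ 0 := by by_contra! e; exact h (eq_bot_iff.2 e)
  have f2 : ∀ g : H, ∀ w : V, w ≠ 0 → g • w = w → g ≠ 1 → Mx V g := fun g w w0 e g1 => by
    obtain ⟨v, hv⟩ : ∃ v : V, g • v ≠ v := by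
      by_contra! e; exact g1 (eq_of_smul_eq_smul fun v : V => by rw [e, one_smul])
    obtain ⟨r, hr, -⟩ := U w w0
    have k : ∀ v : V, g • v ≠ v → g • v = r • v := fun v hv => by
      obtain ⟨r', hr', m⟩ := hb.cover irr hs (g • v - v)
      have e1 := hb.eq_smul hr'.rf m hv
      have e2 := hb.eq_smul hr'.rf (h := g) (v := v + w) (by rwa [smul_add, e, add_sub_add_right_eq_sub])
        (by rwa [smul_add, e, Ne, add_left_inj])
      rw [smul_add, smul_add, e, e1, add_right_inj] at e2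
      rw [e1, (U w w0).unique ⟨hr', e2.symm⟩ hr]
    refine (eq_of_smul_eq_smul fun x : V => by_contra fun hn => ?_ : g = r) ▸ hr.1
    have e1 : g • x = x := by_contra fun e => hn (k x e)
    have := k (v + x) (by rwa [smul_add, e1, Ne, add_left_inj])
    exact hn (by rwa [smul_add, smul_add, k v hv, add_right_inj] at this)
  have f3 : ∀ r r' : H, Mx V r → Mx V r' → ¬ Mx V (r * r') := fun r r' h1 h2 h3 => by
    obtain ⟨y, hy, y0⟩ : ∃ y ∈ Cm V (r * r'), y ≠ 0 := by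
      by_contra! e
      exact h (AddSubgroup.eq_bot_of_card_le _ ((h3.2 s hs.1).trans (AddSubgroup.card_eq_one.2 (eq_bot_iff.2 e)).le))
    have ne : r ≠ r' := by rintro rfl; exact h3.1 (hb.sq h1.rf)
    rw [hb.Cm_mul h1.rf h2.rf ne] at hy
    exact ne ((U y y0).unique ⟨h1, mem_Cm.1 hy.1⟩ ⟨h2, mem_Cm.1 hy.2⟩)
  have f4 : ∀ g : H, ¬ Mx V g → Mx V (s * g) := fun g hg => by
    by_cases e : g • w = w
    · rwa [show g = 1 from by_contra fun g1 => hg (f2 g w w0 e g1), mul_one]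
    obtain ⟨r, hr, m⟩ := hb.cover irr hs (g • w - w)
    have e1 : (r⁻¹ * g) • w = w := by rw [mul_smul, hb.eq_smul hr.rf m e, inv_smul_smul]
    have e2 := (U w w0).unique ⟨f2 _ w w0 e1 fun e => hg (inv_mul_eq_one.1 e ▸ hr), e1⟩ ⟨hs, mem_Cm.1 hw⟩
    simpa [inv_mul_eq_iff_eq_mul.1 e2, inv_eq_of_mul_eq_one_right s2, mul_assoc] using hr.conj s
  have f5 : ∀ g : H, ¬ Mx V g → g * s * g = s := fun g hg => by
    have := hb.sq (f4 g hg).rf
    rwa [mul_assoc, ← mul_assoc g, mul_eq_one_iff_inv_eq, inv_eq_of_mul_eq_one_right s2, eq_comm] at this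
  have f6 : ∀ g k : H, ¬ Mx V g → ¬ Mx V k → ¬ Mx V (g * k) := fun g k hg hk => by
    simpa [mul_assoc, ← mul_assoc s s, s2] using f3 _ _ ((f4 g hg).conj s⁻¹) (f4 k hk)
  have f7 : ∀ g k : H, ¬ Mx V g → ¬ Mx V k → g * k = k * g := fun g k hg hk => by
    have := f5 _ (f6 g k hg hk)
    have e : ∀ g : H, ¬ Mx V g → s * g⁻¹ = g * s := fun g hg => by rw [mul_inv_eq_iff_eq_mul, f5 g hg]
    calc g * k = g * k * s * (g * k) * k⁻¹ * g⁻¹ * s⁻¹ := by group
      _ = k * g := by rw [this, e k hk, mul_assoc k, e g hg]; group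
  let S : Set (AddMonoid.End V) := DistribMulAction.toAddMonoidEnd H V '' {g | ¬ Mx V g}
  have hc : ∀ a ∈ S, ∀ b ∈ S, a * b = b * a := by
    rintro _ ⟨g, hg, rfl⟩ _ ⟨k, hk, rfl⟩
    rw [← map_mul, f7 g k hg hk, map_mul]
  have ir : ∀ B : AddSubgroup V, (∀ a ∈ S, ∀ u ∈ B, a u ∈ B) → B = ⊥ ∨ B = ⊤ := fun B hB => by
    have k : ∀ g : H, ¬ Mx V g → ∀ v ∈ B, g • v ∈ B := fun g hg => hB _ ⟨g, hg, rfl⟩
    refine irr B fun g v hv => ?_
    by_cases hg : Mx V g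
    · by_cases v0 : v = 0
      · simp [v0]
      obtain ⟨r, hr, -⟩ := U v v0
      simpa [mul_smul, hr.2] using k _ (f3 g r hg hr.1) v hv
    · exact k g hg v hv
  obtain ⟨K, _, _, e, e1, hK⟩ := Perm.exists_field_of_irreducible S hc ir w0
  let φ : K →+ K := (e.symm : V →+ K).comp ((DistribSMul.toAddMonoidHom V s).comp (e : K →+ V))
  have p1 : ∀ x, s • e x = e (φ x) := fun x => by simp [φ]
  have p2 : ∀ x, φ (φ x) = x := fun x => e.injective (by rw [← p1, ← p1, ← mul_smul, s2, one_smul])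
  have p3 : φ 1 = 1 := e.injective (by rw [← p1, e1, mem_Cm.1 hw])
  have p4 : ∀ g : H, ¬ Mx V g → ∃ a, a * φ a = 1 ∧ (∀ x, φ (a * x) = φ a * φ x) ∧ ∀ x, g • e x = e (a * x) := by
    intro g hg
    obtain ⟨a, ha⟩ := hK _ fun b hb => hc b hb _ ⟨g, hg, rfl⟩
    replace ha : ∀ x, g • e x = e (a * x) := ha
    have k : ∀ x, a * φ (a * x) = φ x := fun x => e.injective (by
      rw [← ha, ← p1, ← ha, ← mul_smul, ← mul_smul, f5 g hg, p1])
    have k1 : a * φ a = 1 := by simpa [p3] using k 1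
    exact ⟨a, k1, fun x => mul_left_cancel₀ (left_ne_zero_of_mul_eq_one k1) (by
      rw [k, ← mul_assoc, k1, one_mul]), ha⟩
  let M : AddSubgroup K :=
    { carrier := {a | ∀ x, φ (a * x) = φ a * φ x}
      zero_mem' := by simp
      add_mem' := fun ha hb x => by rw [add_mul, map_add, map_add, ha, hb, add_mul]
      neg_mem' := fun ha x => by rw [neg_mul, map_neg, map_neg, ha, neg_mul] }
  have p5 : ∀ a x, φ (a * x) = φ a * φ x := fun a => by
    have := (ir (M.map (e : K →+ V)) (by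
      rintro _ ⟨g, hg, rfl⟩ _ ⟨b, hb, rfl⟩
      obtain ⟨a, -, h1, h2⟩ := p4 g hg
      exact ⟨a * b, fun x => by rw [mul_assoc, h1, hb, h1, mul_assoc], (h2 b).symm⟩)).resolve_left fun h =>
        w0 (AddSubgroup.mem_bot.1 (h ▸ ⟨1, fun x => by rw [one_mul, p3, one_mul], e1⟩))
    obtain ⟨b, hb, e'⟩ := this.ge (AddSubgroup.mem_top (e a))
    exact e.injective e' ▸ hb
  have p6 : ∀ g : H, Mx V g → ∃ a, a * φ a = 1 ∧ (∀ x, (g * s) • e x = e (a * x)) ∧ ∀ x, g • e x = e (a * φ x) := by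
    intro g hg
    obtain ⟨a, h1, -, h2⟩ := p4 _ (f3 g s hg hs)
    exact ⟨a, h1, h2, fun x => by rw [← h2, ← p1, mul_smul, ← mul_smul s, s2, one_smul]⟩
  refine ⟨K, _, ‹_›, e, { φ with invFun := φ, left_inv := p2, right_inv := p2, map_mul' := p5, map_add' := φ.map_add },
    p2, ?_, p1, fun g => ?_, fun a ha => ?_⟩
  · by_contra! h
    exact hs.1 (eq_of_smul_eq_smul fun v : V => by
      rw [one_smul, ← e.apply_symm_apply v, p1]; exact congrArg e (h _))
  · by_cases hg : Mx V g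
    · obtain ⟨a, h1, -, h2⟩ := p6 g hg
      exact ⟨a, h1, .inr h2⟩
    · obtain ⟨a, h1, -, h2⟩ := p4 g hg
      exact ⟨a, h1, .inl h2⟩
  · replace ha : a * φ a = 1 := ha
    obtain ⟨c, c0, hc⟩ : ∃ c, c ≠ 0 ∧ a * φ c = c := by
      by_cases h : 1 + a = 0
      · obtain ⟨δ, hδ⟩ : ∃ δ, φ δ ≠ δ := by
          by_contra! h
          exact hs.1 (eq_of_smul_eq_smul fun v : V => by rw [one_smul, ← e.apply_symm_apply v, p1, h])
        exact ⟨δ - φ δ, sub_ne_zero.2 hδ.symm, by rw [map_sub, p2]; linear_combination (φ δ - δ) * h⟩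
      · exact ⟨1 + a, h, by rw [map_add, p3, mul_add, ha, mul_one, add_comm]⟩
    obtain ⟨r, hr, -⟩ := U (e c) (by simpa)
    obtain ⟨b, -, h1, h2⟩ := p6 r hr.1
    obtain rfl : a = b := mul_right_cancel₀ (fun h => c0 (by rw [← hc, h, mul_zero]))
      (hc.trans (e.injective ((h2 c).symm.trans hr.2)).symm)
    exact ⟨_, h1⟩

end LBin

end Cfsg.Agent.Bin
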